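import Cfsg.Agent.Lib.KnownSimple.MultC.Std
import Cfsg.Agent.Lib.KnownSimple.MathieuOut
import Cfsg.Agent.Lib.Golay.Dodecad2
import Cfsg.Agent.Lib.M24.Flag2

/-!
# Schur multipliers of the Mathieu groups: the natural representations
-/

set_option autoImplicit false

namespace Cfsg.Agent.Lib.KnownSimple.MultM

open Cfsg Cfsg.Spor Cfsg.Agent.Lib.Compute Cfsg.Agent.Lib.Golay Cfsg.Agent.Lib.KnownSimple.CodeCalc
open Cfsg.Agent.Lib.KnownSimple.MathieuData Cfsg.Agent.Lib.KnownSimple.MathieuFacts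
open Cfsg.Agent.Lib.KnownSimple.MathieuGen Cfsg.Agent.Lib.KnownSimple.MultC Cfsg.Agent.Lib.KnownSimple.MathieuOut
open scoped Pointwise

theorem card_of_sub {K H : Subgroup P24} (S : Subgroup ↥K) (hle : H ≤ K) (h : ∀ u : ↥K, u ∈ S ↔ (u : P24) ∈ H) :
    Nat.card H = Nat.card S := by
  have e : S = H.subgroupOf K := by
    ext u
    rw [h u, Subgroup.mem_subgroupOf]
  rw [e]
  exact Nat.card_congr (Subgroup.subgroupOfEquivOfLe hle).toEquiv.symm

theorem card_M23 : Nat.card ↥M23 = 10200960 := by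
  rw [card_of_sub (MulAction.stabilizer M24 (none : GolayPt)) M23_le]
  · exact card_stabilizer_point _
  · intro u
    rw [MulAction.mem_stabilizer_iff, M23, Subgroup.mem_inf, MulAction.mem_stabilizer_iff]
    exact ⟨fun h => ⟨u.2, h⟩, fun h => h.2⟩

theorem card_M22 : Nat.card ↥M22 = 443520 := by
  rw [card_of_sub (MulAction.stabilizer M24 (none : GolayPt) ⊓ MulAction.stabilizer M24 (some 0 : GolayPt)) M22_le]
  · exact card_stabilizer_two (by simp)
  · intro u
    rw [Subgroup.mem_inf, MulAction.mem_stabilizer_iff, MulAction.mem_stabilizer_iff, M22, M23, Subgroup.mem_inf,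
      Subgroup.mem_inf, MulAction.mem_stabilizer_iff, MulAction.mem_stabilizer_iff]
    exact ⟨fun h => ⟨⟨u.2, h.1⟩, h.2⟩, fun h => ⟨h.1.2, h.2⟩⟩

theorem squareDodecad_mem : squareDodecad ∈ dodecads := by
  rw [squareDodecad_eq]
  exact D0_mem

theorem card_M12 : Nat.card ↥M12 = 95040 := by
  rw [card_of_sub (MulAction.stabilizer M24 squareDodecad) M12_le]
  · exact card_stabilizer_dodecad squareDodecad_mem
  · intro u
    rw [MulAction.mem_stabilizer_iff, M12, Subgroup.mem_inf, MulAction.mem_stabilizer_iff]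
    exact ⟨fun h => ⟨u.2, h⟩, fun h => h.2⟩

theorem some0_mem : (some 0 : GolayPt) ∈ squareDodecad := by
  rw [squareDodecad_eq]
  have h := Cfsg.Agent.Lib.M24.pt0_mem
  exact h

theorem card_M11 : Nat.card ↥M11 = 7920 := by
  rw [card_of_sub (MulAction.stabilizer M24 squareDodecad ⊓ MulAction.stabilizer M24 (some 0 : GolayPt)) M11_le]
  · exact card_stabilizer_flag squareDodecad_mem some0_mem
  · intro u
    rw [Subgroup.mem_inf, MulAction.mem_stabilizer_iff, MulAction.mem_stabilizer_iff, M11, M12, Subgroup.mem_inf,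
      Subgroup.mem_inf, MulAction.mem_stabilizer_iff, MulAction.mem_stabilizer_iff]
    exact ⟨fun h => ⟨⟨u.2, h.1⟩, h.2⟩, fun h => ⟨h.1.2, h.2⟩⟩

/-- The table of a list of packed involutions. -/
noncomputable def tauC (cs : List ℕ) (l i : ℕ) : ℕ := pc (lg 0 cs (Nat.div l 2)) i

section letters

variable {G : Type} [Group G] {d : ℕ} {g : ℕ → G} {ρ : G →* Equiv.Perm (Fin 24)}

theorem letter_eq {cs : List ℕ} (C : Coset d 24) (hτ : C.τ = tauC cs) (hρ : ∀ x, x < d → ρ (g x) = (C.p x)⁻¹) {x : ℕ}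
    (hx : x < d) (hc : checkPerm 24 (pc (lg 0 cs x)) = true) : ppm (lg 0 cs x) = toX enc ρ (g x) := by
  have e : ev g [2 * x] = g x := by
    rw [ev_cons, ev_nil, mul_one, lv_two]
  have h2 : ∀ l ∈ [2 * x], l < 2 * d := by
    intro l hl
    rw [List.mem_singleton] at hl
    omega
  have h3 := code_toX enc C hρ [2 * x] h2
  rw [e] at h3
  refine eq_of_code enc (isCode_ppm hc) h3 fun i _ => ?_
  have e2 : invW [2 * x] = [2 * x + 1] := by
    simp [invW, invL]
  rw [e2, actW_cons, actW_nil, hτ]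
  show _ = pc (lg 0 cs ((2 * x + 1) / 2)) i
  have e3 : (2 * x + 1) / 2 = x := by omega
  rw [e3]

end letters

theorem lg_mem {l : List ℕ} {n : ℕ} (h : n < l.length) : lg 0 l n ∈ l := by
  rw [lg_eq, List.getD_eq_getElem _ _ h]
  exact List.getElem_mem h

theorem chk_of_all {cs : List ℕ} {p : ℕ → Bool} (h : cs.all p = true) {c : ℕ} (hc : c ∈ cs) : p c = true :=
  List.all_eq_true.1 h c hc

/-- The test of a packed permutation of `M24`. -/
noncomputable def tM24 (c : ℕ) : Bool := bcond (checkPerm 24 (pc c)) (checkM24 (pc c)) false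

theorem perm_of_t {c : ℕ} (h : tM24 c = true) : checkPerm 24 (pc c) = true := by
  unfold tM24 at h
  cases h1 : checkPerm 24 (pc c) with
  | true => rfl
  | false => rw [h1, bcond_false] at h; exact Bool.noConfusion h

theorem mem_of_t {c : ℕ} (h : tM24 c = true) : ppm c ∈ M24 := by
  have h0 := perm_of_t h
  unfold tM24 at h
  rw [h0, bcond_true] at h
  exact mem_M24_of_check (isCode_ppm h0) h

/-- The test of a packed permutation of `M23`. -/
noncomputable def tM23 (c : ℕ) : Bool := bcond (tM24 c) (Nat.beq (pc c 23) 23) false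

/-- The test of a packed permutation of `M22`. -/
noncomputable def tM22 (c : ℕ) : Bool := bcond (tM23 c) (Nat.beq (pc c 0) 0) false

/-- The test of a packed permutation of `M12`. -/
noncomputable def tM12 (c : ℕ) : Bool := bcond (tM24 c) (Nat.beq (imgMask (pc c) Dm 24) Dm) false

/-- The test of a packed permutation of `M11`. -/
noncomputable def tM11 (c : ℕ) : Bool := bcond (tM12 c) (Nat.beq (pc c 0) 0) false

theorem and_of_bcond {a b : Bool} (h : bcond a b false = true) : a = true ∧ b = true := by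
  cases a <;> cases b <;> simp_all [bcond]

theorem cd_of_code {c : ℕ} (h : checkPerm 24 (pc c) = true) {r : ℕ} (hr : r < 24) : cd (ppm c) r = pc c r :=
  cd_eq_code (isCode_ppm h) hr

theorem t24_of_23 {c : ℕ} (h : tM23 c = true) : tM24 c = true := (and_of_bcond h).1
theorem t24_of_12 {c : ℕ} (h : tM12 c = true) : tM24 c = true := (and_of_bcond h).1

theorem mem_of_t23 {c : ℕ} (h : tM23 c = true) : ppm c ∈ M23 := by
  obtain ⟨h1, h2⟩ := and_of_bcond h
  rw [mem_M23_iff]
  refine ⟨mem_of_t h1, ?_⟩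
  rw [cd_of_code (perm_of_t h1) (by norm_num)]
  exact Nat.eq_of_beq_eq_true h2

theorem mem_of_t22 {c : ℕ} (h : tM22 c = true) : ppm c ∈ M22 := by
  obtain ⟨h1, h2⟩ := and_of_bcond h
  obtain ⟨h3, h4⟩ := and_of_bcond h1
  rw [mem_M22_iff]
  refine ⟨mem_of_t h3, ?_, ?_⟩
  · rw [cd_of_code (perm_of_t h3) (by norm_num)]
    exact Nat.eq_of_beq_eq_true h4
  · rw [cd_of_code (perm_of_t h3) (by norm_num)]
    exact Nat.eq_of_beq_eq_true h2

theorem mem_of_t12 {c : ℕ} (h : tM12 c = true) : ppm c ∈ M12 := by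
  obtain ⟨h1, h2⟩ := and_of_bcond h
  exact mem_M12_of (mem_of_t h1) (isCode_ppm (perm_of_t h1))
    (Nat.eq_of_beq_eq_true h2)

theorem mem_of_t11 {c : ℕ} (h : tM11 c = true) : ppm c ∈ M11 := by
  obtain ⟨h1, h2⟩ := and_of_bcond h
  obtain ⟨h3, h4⟩ := and_of_bcond h1
  exact mem_M11_of (mem_of_t h3) (isCode_ppm (perm_of_t h3))
    (Nat.eq_of_beq_eq_true h4) (Nat.eq_of_beq_eq_true h2)

/-- Injectivity from the natural representation. -/
theorem inj_of_toX {X : Type} {N : ℕ} {G : Type} [Group G] (E : Enc X N) {ρ : G →* Equiv.Perm (Fin N)}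
    (h : Function.Injective (toX E ρ)) : Function.Injective ρ := by
  intro a b hab
  apply h
  show (Equiv.permCongrHom (finEquiv E)).toMonoidHom (ρ a) = (Equiv.permCongrHom (finEquiv E)).toMonoidHom (ρ b)
  rw [hab]

end Cfsg.Agent.Lib.KnownSimple.MultM
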